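import Mathlib

/-!
# Primitive prime divisors of `2 ^ N - 1`
-/

set_option autoImplicit false

namespace CfsgLib.SEM

open Polynomial

theorem dvd_two_pow_sub_one_iff {r k : ℕ} : r ∣ 2 ^ k - 1 ↔ (2 : ZMod r) ^ k = 1 := by
  rw [← ZMod.natCast_eq_zero_iff, Nat.cast_sub (Nat.one_le_pow _ _ (by norm_num)), sub_eq_zero]
  simp

theorem three_mul_lt_two_pow {r : ℕ} (h : 4 ≤ r) : 3 * r + 1 ≤ 2 ^ r := by
  induction r, h using Nat.le_induction with
  | base => norm_num
  | succ n _ ih => rw [pow_succ]; omega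

theorem exists_primitive_prime_two {N : ℕ} (hN : 1 < N) (hN6 : N ≠ 6) :
    ∃ r : ℕ, r.Prime ∧ r ∣ 2 ^ N - 1 ∧ ∀ k, r ∣ 2 ^ k - 1 → N ∣ k := by
  by_contra hc
  push Not at hc
  set Φ := ((cyclotomic N ℤ).eval 2).natAbs with hΦ
  have hlt : 1 < Φ := by
    simpa using sub_one_pow_totient_lt_natAbs_cyclotomic_eval (q := 2) hN (by norm_num)
  have key : ∀ r : ℕ, r.Prime → r ∣ Φ →
      (∃ a m, N = r ^ (a + 1) * m ∧ ¬ r ∣ m ∧ m ∣ r - 1 ∧ 1 < m ∧ r ≠ 2) ∧ ¬ r ^ 2 ∣ Φ := by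
    intro r hr h
    have := Fact.mk hr
    obtain ⟨a, m, hm, rfl⟩ := Nat.exists_eq_pow_mul_and_not_dvd (by omega : N ≠ 0) r hr.ne_one
    have : NeZero (m : ZMod r) := ⟨(ZMod.natCast_eq_zero_iff m r).not.2 hm⟩
    have h1 : IsPrimitiveRoot (2 : ZMod r) m := by
      rw [← isRoot_cyclotomic_prime_pow_mul_iff_of_charP (p := r) (k := a), IsRoot.def,
        ← map_cyclotomic_int, show (2 : ZMod r) = Int.castRingHom (ZMod r) 2 by simp,
        eval_map_apply, eq_intCast, ZMod.intCast_zmod_eq_zero_iff_dvd]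
      exact Int.natCast_dvd.2 h
    have hm0 : m ≠ 0 := by rintro rfl; simp at hm
    have h0 : (2 : ZMod r) ≠ 0 := h1.ne_zero hm0
    have h2 : r ≠ 2 := by rintro rfl; exact h0 rfl
    obtain ⟨a, rfl⟩ : ∃ b, a = b + 1 := Nat.exists_eq_add_one.2 (Nat.pos_of_ne_zero (by
      rintro rfl
      obtain ⟨k, h3, h4⟩ := hc r hr (dvd_two_pow_sub_one_iff.2 (by simpa using h1.pow_eq_one))
      exact h4 (by simpa using h1.dvd_of_pow_eq_one k (dvd_two_pow_sub_one_iff.1 h3))))
    refine ⟨⟨a, m, rfl, hm, h1.dvd_of_pow_eq_one _ (ZMod.pow_card_sub_one_eq_one h0), ?_, h2⟩,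
      fun h3 => ?_⟩
    · refine lt_of_le_of_ne (Nat.one_le_iff_ne_zero.2 hm0) ?_
      rintro rfl
      have h3 := dvd_two_pow_sub_one_iff.2 h1.pow_eq_one
      exact hr.ne_one (by simpa using h3)
    · have h4 := eval_dvd (x := 2) (X_pow_sub_one_mul_cyclotomic_dvd_X_pow_sub_one_of_dvd ℤ
        (d := r ^ a * m) (n := r ^ (a + 1) * m) (Nat.mem_properDivisors.2
          ⟨Nat.mul_dvd_mul_right (pow_dvd_pow r (Nat.le_succ a)) m, Nat.mul_lt_mul_of_pos_right
            (Nat.pow_lt_pow_right hr.one_lt (Nat.lt_succ_self a)) (Nat.pos_of_ne_zero hm0)⟩))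
      simp only [eval_mul, eval_sub, eval_pow, eval_X, eval_one] at h4
      set y : ℤ := 2 ^ (r ^ a * m) with hy
      have hy1 : y - 1 ≠ 0 := sub_ne_zero.2 (one_lt_pow₀ (by norm_num) (mul_ne_zero
        (pow_ne_zero _ hr.ne_zero) hm0)).ne'
      rw [show r ^ (a + 1) * m = r ^ a * m * r by ring, pow_mul, ← hy, ← mul_geom_sum y r,
        mul_dvd_mul_iff_left hy1, show r ^ a * m * r = r ^ (a + 1) * m by ring] at h4
      have h5 := emultiplicity_geom_sum₂_eq_one (x := y) (y := 1) (Nat.prime_iff_prime_int.1 hr)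
        (hr.odd_of_ne_two h2) (by
          rw [← ZMod.intCast_zmod_eq_zero_iff_dvd, hy]
          push_cast
          rw [mul_comm, pow_mul, h1.pow_eq_one, one_pow, sub_self]) (by
          rw [← ZMod.intCast_zmod_eq_zero_iff_dvd, hy]
          push_cast
          exact pow_ne_zero _ h0)
      simp only [one_pow, mul_one] at h5
      have h6 := pow_dvd_iff_le_emultiplicity.1 ((show (r : ℤ) ^ 2 ∣ _ by
        exact_mod_cast Int.natCast_dvd.2 h3).trans h4)
      rw [h5] at h6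
      exact absurd h6 (by norm_num)
  have key2 : ∀ r : ℕ, r.Prime → r ∣ Φ →
      r ∣ N ∧ ∀ r' : ℕ, r'.Prime → r' ∣ N → r' ≠ r → r' < r := by
    intro r hr h
    obtain ⟨⟨a, m, e, -, h1, -⟩, -⟩ := key r hr h
    refine ⟨e ▸ (dvd_pow_self r (by omega)).mul_right m, fun r' hr' h3 h4 => ?_⟩
    have h5 : r' ∣ m := ((Nat.Prime.dvd_mul hr').1 (e ▸ h3)).resolve_left fun h =>
      h4 ((Nat.prime_dvd_prime_iff_eq hr' hr).1 (hr'.dvd_of_dvd_pow h))
    have h6 := Nat.le_of_dvd (Nat.sub_pos_of_lt hr.one_lt) (h5.trans h1)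
    have := hr.pos
    omega
  obtain ⟨r, hr, h⟩ := Nat.exists_prime_and_dvd (by omega : Φ ≠ 1)
  obtain ⟨⟨a, m, e, hm, hm1, hm2, hr2⟩, h3⟩ := key r hr h
  obtain ⟨h2, h4⟩ := key2 r hr h
  have h5 := Nat.eq_prime_pow_of_unique_prime_dvd (p := r) (by omega : Φ ≠ 0) fun {d} hd h' => by
    obtain ⟨h6, h7⟩ := key2 d hd h'
    by_contra h8
    exact lt_asymm (h4 d hd h6 h8) (h7 r hr h2 (Ne.symm h8))
  have h6 : Φ ≤ r := by
    rw [h5] at h3 ⊢
    rw [Nat.pow_dvd_pow_iff_le_right hr.one_lt] at h3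
    exact (Nat.pow_le_pow_right hr.pos (by omega)).trans (pow_one r).le
  have hq : 2 ^ r ≠ 1 := (Nat.one_lt_two_pow hr.ne_zero).ne'
  have hrr : r < 2 ^ r := Nat.lt_two_pow_self
  rcases a with _ | a
  · have h7 := congrArg (eval 2) (cyclotomic_expand_eq_cyclotomic_mul hr hm ℤ)
    rw [expand_eval, eval_mul, show m * r = N by rw [e]; ring] at h7
    have h8 := sub_one_pow_totient_lt_natAbs_cyclotomic_eval (q := 2 ^ r) hm2 hq
    push_cast at h8
    rw [h7, Int.natAbs_mul, ← hΦ] at h8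
    have h9 : ((cyclotomic m ℤ).eval 2).natAbs ≤ 3 ^ m.totient := by
      have h10 := cyclotomic_eval_le_add_one_pow_totient (q := 2) (by norm_num) m
      have h11 : (cyclotomic m ℝ).eval 2 = (((cyclotomic m ℤ).eval 2 : ℤ) : ℝ) := by
        rw [← map_cyclotomic_int, show (2 : ℝ) = Int.castRingHom ℝ 2 by simp, eval_map_apply,
          eq_intCast]
      have h12 := cyclotomic_nonneg m (x := (2 : ℤ)) (by norm_num)
      rw [← @Nat.cast_le ℝ, Nat.cast_natAbs, abs_of_nonneg h12, ← h11]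
      norm_num at h10 ⊢
      exact h10
    have h10 : 4 ≤ r := by
      by_contra h11
      have := hr.two_le
      obtain rfl : r = 3 := by omega
      have := Nat.le_of_dvd (by norm_num) hm1
      obtain rfl : m = 2 := by omega
      exact hN6 e
    have h11 := three_mul_lt_two_pow h10
    have h12 : 0 < m.totient := Nat.totient_pos.2 (by omega)
    have h13 : (3 * r) ^ m.totient ≤ (2 ^ r - 1) ^ m.totient := Nat.pow_le_pow_left (by omega) _
    have h14 : r ≤ r ^ m.totient := Nat.le_self_pow h12.ne' r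
    rw [mul_pow] at h13
    have h15 := Nat.mul_le_mul h6 h9
    have h16 := Nat.mul_le_mul_left (3 ^ m.totient) h14
    rw [mul_comm r] at h15
    exact absurd (h8.trans_le (h15.trans (h16.trans h13))) (lt_irrefl _)
  · have h7 := congrArg (eval 2) (cyclotomic_expand_eq_cyclotomic hr
      (n := r ^ (a + 1) * m) ((dvd_pow_self r (by omega)).mul_right m) ℤ)
    rw [expand_eval, show r ^ (a + 1) * m * r = N by rw [e]; ring] at h7
    have h9 : 1 < r ^ (a + 1) * m := lt_of_lt_of_le hm2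
      (Nat.le_mul_of_pos_left m (pow_pos hr.pos _))
    have h8 := sub_one_pow_totient_lt_natAbs_cyclotomic_eval (q := 2 ^ r) h9 hq
    push_cast at h8
    rw [h7, ← hΦ] at h8
    have h12 : 0 < (r ^ (a + 1) * m).totient := Nat.totient_pos.2 (by omega)
    have h14 := Nat.le_self_pow h12.ne' (2 ^ r - 1)
    omega

end CfsgLib.SEM
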