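import Mathlib
import Cfsg.Agent.Lib.SEB.Zs2

/-! Linear algebra for faithful modules over the field with two elements. -/

set_option autoImplicit false

namespace CfsgLib.SEM

open Subgroup Module

variable {G : Type*} [Group G] {V : Type*} [AddCommGroup V] [Module (ZMod 2) V]
  (ρ : Representation (ZMod 2) G V)

theorem add_self (v : V) : v + v = 0 := by
  rw [← two_smul (ZMod 2) v, show (2 : ZMod 2) = 0 from rfl, zero_smul]

theorem card_sub [Module.Finite (ZMod 2) V] (W : Submodule (ZMod 2) V) :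
    Nat.card W = 2 ^ finrank (ZMod 2) W := by
  rw [Module.natCard_eq_pow_finrank (K := ZMod 2), Nat.card_zmod]

theorem rho_mul (a b : G) (v : V) : ρ (a * b) v = ρ a (ρ b v) := by
  rw [map_mul, Module.End.mul_apply]

theorem card_dvd_of_act {Y : Type*} (act : G → Y → Y) (h0 : ∀ x, act 1 x = x)
    (hm : ∀ a b x, act (a * b) x = act a (act b x)) (A : Subgroup G) (X : Set Y)
    (h1 : ∀ a ∈ A, ∀ x ∈ X, act a x ∈ X) (h2 : ∀ a ∈ A, ∀ x ∈ X, act a x = x → a = 1) :
    Nat.card A ∣ X.ncard := by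
  letI : MulAction A X :=
    { smul := fun a x => ⟨act a x, h1 a a.2 x x.2⟩
      one_smul := fun x => Subtype.ext (h0 x)
      mul_smul := fun a b x => Subtype.ext (hm a b x) }
  have e := MulAction.selfEquivOrbitsQuotientProd (G := A) (X := X) fun x =>
    eq_bot_iff.2 fun a ha => mem_bot.2 (Subtype.ext (h2 a a.2 x x.2
      (congrArg Subtype.val (MulAction.mem_stabilizer_iff.1 ha))))
  rw [← Nat.card_coe_set_eq, Nat.card_congr e, Nat.card_prod]
  exact dvd_mul_left _ _

theorem card_dvd_of_free (A : Subgroup G) (X : Set V) (h1 : ∀ a ∈ A, ∀ x ∈ X, ρ a x ∈ X)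
    (h2 : ∀ a ∈ A, ∀ x ∈ X, ρ a x = x → a = 1) : Nat.card A ∣ X.ncard :=
  card_dvd_of_act (fun a x => ρ a x) (by simp) (rho_mul ρ) A X h1 h2

theorem range_pow_le (s : G) (m : ℕ) :
    LinearMap.range (ρ (s ^ m) - 1) ≤ LinearMap.range (ρ s - 1) := by
  rw [map_pow, ← mul_geom_sum]
  exact LinearMap.range_comp_le_range _ _

theorem sub_sub_apply {u : G} (hu : u * u = 1) (v : V) : (ρ u - 1) ((ρ u - 1) v) = 0 := by
  simp only [LinearMap.sub_apply, Module.End.one_apply, map_sub]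
  rw [← rho_mul, hu, map_one, Module.End.one_apply, sub_eq_zero, ← neg_sub,
    neg_eq_iff_add_eq_zero, add_self]

theorem two_mul_le [Module.Finite (ZMod 2) V] {u : G} (hu : u * u = 1) :
    2 * finrank (ZMod 2) (LinearMap.range (ρ u - 1)) ≤ finrank (ZMod 2) V := by
  have h1 := LinearMap.finrank_range_add_finrank_ker (ρ u - 1)
  have h2 : LinearMap.range (ρ u - 1) ≤ LinearMap.ker (ρ u - 1) := by
    rintro _ ⟨v, rfl⟩
    exact sub_sub_apply ρ hu v
  have h3 := Submodule.finrank_mono h2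
  omega

theorem exists_W [Finite G] [Module.Finite (ZMod 2) V] {R : Subgroup G} (hR : Odd (Nat.card R))
    {z : G} (hz : z * z = 1) (hzR : ∀ x ∈ R, z * x * z = x⁻¹) :
    ∃ (W : Submodule (ZMod 2) V) (m : ℕ),
      (∀ g ∈ normalizer (R : Set G), ∀ w ∈ W, ρ g w ∈ W) ∧ (∀ x ∈ R, ∀ v, ρ x v - v ∈ W) ∧
      (∀ w ∈ W, (∀ x ∈ R, ρ x w = w) → w = 0) ∧ finrank (ZMod 2) W = 2 * m ∧
      finrank (ZMod 2) ↥(W ⊓ LinearMap.ker (ρ z - 1)) = m ∧
      m ≤ finrank (ZMod 2) (LinearMap.range (ρ z - 1)) := by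
  classical
  letI := Fintype.ofFinite R
  set e : V →ₗ[ZMod 2] V := ∑ x : R, ρ x with he
  have he' : ∀ v, e v = ∑ x : R, ρ x v := fun v => by rw [he, LinearMap.sum_apply]
  have h1 : ∀ g ∈ normalizer (R : Set G), ∀ w ∈ LinearMap.ker e, ρ g w ∈ LinearMap.ker e := by
    intro g hg w hw
    rw [LinearMap.mem_ker, he'] at hw ⊢
    rw [← Equiv.sum_comp (R.normalizerMonoidHom ⟨g, hg⟩).toEquiv, ← map_zero (ρ g), ← hw, map_sum]
    refine Finset.sum_congr rfl fun x _ => ?_
    rw [← rho_mul, ← rho_mul]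
    congr 2
    change g * x * g⁻¹ * g = g * x
    simp
  have hzi : z⁻¹ = z := inv_eq_of_mul_eq_one_right hz
  have hzN : z ∈ normalizer (R : Set G) := mem_normalizer_fintype fun x hx => by
    rw [hzi, hzR x hx]
    exact inv_mem hx
  set W := LinearMap.ker e with hW
  have h2 : W ⊓ LinearMap.ker (ρ z - 1) = W.map (ρ z - 1) := by
    refine le_antisymm (fun w hw => ?_) ?_
    · have h3 : ρ z w = w := by simpa [sub_eq_zero] using hw.2
      have h4 : ∑ x ∈ (Finset.univ : Finset R).erase 1, (W.map (ρ z - 1)).mkQ (ρ x w) = 0 := by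
        refine Finset.sum_involution (fun a _ => a⁻¹) (fun a _ => ?_) (fun a ha _ h => ?_)
          (fun a ha => by simpa using ha) (fun a _ => inv_inv a)
        · rw [← map_add, Submodule.mkQ_apply, Submodule.Quotient.mk_eq_zero]
          refine ⟨ρ a w, h1 a (le_normalizer a.2) w hw.1, ?_⟩
          rw [Subgroup.coe_inv, ← hzR a a.2, rho_mul, rho_mul, h3, LinearMap.sub_apply,
            Module.End.one_apply, sub_eq_iff_eq_add, add_comm (ρ a w), add_assoc, add_self,
            add_zero]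
        · have h5 : a ^ 2 = 1 := by rw [pow_two]; nth_rewrite 1 [← h]; exact inv_mul_cancel a
          have h6 := Nat.dvd_gcd (orderOf_dvd_of_pow_eq_one h5) (orderOf_dvd_natCard a)
          rw [(Nat.coprime_two_left.2 hR).gcd_eq_one, Nat.dvd_one, orderOf_eq_one_iff] at h6
          simp [h6] at ha
      have h5 := congrArg (W.map (ρ z - 1)).mkQ (LinearMap.mem_ker.1 hw.1)
      rw [he', map_sum, ← Finset.add_sum_erase _ _ (Finset.mem_univ 1), h4, map_zero, add_zero,
        Submodule.mkQ_apply, Submodule.Quotient.mk_eq_zero] at h5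
      simpa using h5
    · rintro _ ⟨w, hw, rfl⟩
      exact ⟨sub_mem (h1 z hzN w hw) hw, sub_sub_apply ρ hz w⟩
  refine ⟨W, _, h1, fun x hx v => ?_, fun w hw h => ?_, ?_, rfl, ?_⟩
  · rw [hW, LinearMap.mem_ker, map_sub, he', he', sub_eq_zero,
      ← Equiv.sum_comp (Equiv.mulRight (⟨x, hx⟩ : R)) fun y : R => ρ y v]
    exact Finset.sum_congr rfl fun y _ => (rho_mul ρ y x v).symm
  · rw [hW, LinearMap.mem_ker, he', Finset.sum_congr rfl fun (x : R) _ => h x x.2, Finset.sum_const,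
      Finset.card_univ, ← Nat.card_eq_fintype_card] at hw
    obtain ⟨j, hj⟩ := hR
    rwa [hj, add_smul, mul_comm, mul_smul, two_smul, add_self, smul_zero, zero_add,
      one_smul] at hw
  · have h3 := LinearMap.finrank_range_add_finrank_ker ((ρ z - 1).domRestrict W)
    rw [LinearMap.range_domRestrict, LinearMap.ker_domRestrict, ← h2,
      ← Submodule.finrank_map_subtype_eq W (Submodule.comap _ _),
      Submodule.map_comap_subtype] at h3
    omega
  · rw [h2]
    exact Submodule.finrank_mono LinearMap.map_le_range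

variable {ρ}

theorem exists_ne (hρ : Function.Injective ρ) {x : G} (hx : x ≠ 1) : ∃ v, ρ x v - v ≠ 0 := by
  by_contra h
  push Not at h
  exact hx (hρ (LinearMap.ext fun v => by simpa [sub_eq_zero] using h v))

/-- an involution inverting an element of odd prime order -/
theorem dihedral [Finite G] [Module.Finite (ZMod 2) V] (hρ : Function.Injective ρ) {r : ℕ}
    (hr : r.Prime) (h2 : Odd r) {y u : G} (hy : orderOf y = r) (hu : u * u = 1)
    (huy : u * y * u = y⁻¹) :
    ∃ m, 0 < m ∧ r ∣ 2 ^ (2 * m) - 1 ∧ m ≤ finrank (ZMod 2) (LinearMap.range (ρ u - 1)) := by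
  have hc : Nat.card (zpowers y) = r := by rw [Nat.card_zpowers, hy]
  have hui : u⁻¹ = u := inv_eq_of_mul_eq_one_right hu
  obtain ⟨W, m, h1, h3, h4, h5, -, h6⟩ := exists_W ρ (R := zpowers y) (hc ▸ h2) hu (by
    rintro _ ⟨j, rfl⟩
    have := conj_zpow (i := j) (a := u) (b := y)
    rw [hui, huy] at this
    simp only [← this, inv_zpow])
  have hy1 : y ≠ 1 := fun e => hr.ne_one (by rw [← hy, e, orderOf_one])
  have : Finite V := Module.finite_of_finite (ZMod 2)
  refine ⟨m, Nat.pos_of_ne_zero ?_, ?_, h6⟩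
  · rintro rfl
    obtain ⟨v, hv⟩ := exists_ne hρ hy1
    have h7 := h3 y (mem_zpowers y) v
    rw [Submodule.finrank_eq_zero.1 h5] at h7
    exact hv h7
  · have h7 := card_dvd_of_free ρ (zpowers y) ((W : Set V) \ {0}) (fun a ha x hx =>
      ⟨h1 a (le_normalizer ha) x hx.1, fun e => hx.2 (by
        rw [Set.mem_singleton_iff] at e ⊢
        rw [← (by simp [← rho_mul] : ρ a⁻¹ (ρ a x) = x), e, map_zero])⟩) fun a ha x hx e => by
      by_contra ha1
      have := Fact.mk hr
      have h8 : zpowers a = zpowers y := by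
        refine eq_of_le_of_card_ge (zpowers_le_of_mem ha) ?_
        rw [hc, Nat.card_zpowers]
        have h9 := hc ▸ Subgroup.orderOf_dvd_natCard _ ha
        exact (((Nat.dvd_prime hr).1 h9).resolve_left fun h => ha1 (orderOf_eq_one_iff.1 h)).ge
      refine hx.2 (h4 x hx.1 fun b hb => ?_)
      obtain ⟨j, rfl⟩ := mem_powers_iff_mem_zpowers.2 (h8 ▸ hb)
      induction j with
      | zero => simp
      | succ j ih =>
        simp only [pow_succ] at ih ⊢
        rw [rho_mul, e, ih (h8 ▸ pow_mem (mem_zpowers a) j)]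
    rwa [hc, Set.ncard_sdiff_singleton_of_mem (by simp), ← Nat.card_coe_set_eq,
      SetLike.coe_sort_coe, card_sub, h5] at h7

/-- a `2`-group with a unique involution which inverts a nontrivial normalized subgroup -/
theorem abelian_bound [Finite G] [Module.Finite (ZMod 2) V] (hρ : Function.Injective ρ)
    {S R : Subgroup G} {k : ℕ} (hS : Nat.card S = 2 ^ k) (hSR : S ≤ normalizer (R : Set G))
    (hR : Odd (Nat.card R)) (hR1 : R ≠ ⊥) {z : G} (hz : z * z = 1) (hzS : z ∈ S)
    (hc : ∀ a ∈ S, a * z = z * a) (hu : ∀ a ∈ S, a ≠ 1 → ∃ j : ℕ, a ^ j = z)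
    (hzR : ∀ x ∈ R, z * x * z = x⁻¹) : 2 * k ≤ finrank (ZMod 2) V := by
  obtain ⟨W, m, h1, h3, -, h5, h6, -⟩ := exists_W ρ hR hz hzR
  have : Finite V := Module.finite_of_finite (ZMod 2)
  have h7 : m ≠ 0 := by
    rintro rfl
    obtain ⟨⟨y, hy⟩, hy1⟩ := ne_bot_iff_exists_ne_one.1 hR1
    obtain ⟨v, hv⟩ := exists_ne hρ (x := y) fun e => hy1 (Subtype.ext e)
    have h7 := h3 y hy v
    rw [Submodule.finrank_eq_zero.1 h5] at h7
    exact hv h7
  have hm : ∀ x, x ∈ LinearMap.ker (ρ z - 1) ↔ ρ z x = x := fun x => by simp [sub_eq_zero]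
  have h8 := card_dvd_of_free ρ S ((W : Set V) \ (W ⊓ LinearMap.ker (ρ z - 1) : Submodule _ _))
    (fun a ha x hx => ⟨h1 a (hSR ha) x hx.1, fun e => hx.2 ⟨hx.1, (hm _).2 (by
      have h9 := (hm _).1 e.2
      rw [← rho_mul, ← hc a ha, rho_mul] at h9
      have h10 := congrArg (ρ a⁻¹) h9
      rwa [← rho_mul, ← rho_mul ρ a⁻¹ a, inv_mul_cancel, map_one, Module.End.one_apply,
        Module.End.one_apply] at h10)⟩⟩) fun a ha x hx e => by
    by_contra ha1
    obtain ⟨j, rfl⟩ := hu a ha ha1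
    refine hx.2 ⟨hx.1, (hm _).2 ?_⟩
    clear * - e
    induction j with
    | zero => simp
    | succ j ih => rw [pow_succ, rho_mul, e, ih]
  rw [hS, Set.ncard_sdiff (fun x hx => hx.1), ← Nat.card_coe_set_eq, ← Nat.card_coe_set_eq,
    SetLike.coe_sort_coe, SetLike.coe_sort_coe, card_sub, card_sub, h5, h6, two_mul, pow_add,
    ← Nat.mul_sub_one] at h8
  have h9 : (2 ^ k).Coprime (2 ^ m - 1) := Nat.Coprime.pow_left _ (Nat.coprime_two_left.2
    (Nat.Even.sub_odd Nat.one_le_two_pow (Nat.even_pow.2 ⟨even_two, h7⟩) odd_one))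
  have h10 := (Nat.pow_dvd_pow_iff_le_right one_lt_two).1 (h9.dvd_of_dvd_mul_right h8)
  have h11 := Submodule.finrank_le W
  omega

theorem card_dvd_prod [Module.Finite (ZMod 2) V] (hρ : Function.Injective ρ) {n : ℕ}
    (hn : Odd n) (h : n ∣ Nat.card G) :
    n ∣ ∏ i ∈ Finset.range (finrank (ZMod 2) V), (2 ^ (i + 1) - 1) := by
  set D := finrank (ZMod 2) V
  let b := Module.finBasis (ZMod 2) V
  let f : G →* GL (Fin D) (ZMod 2) :=
    ((LinearMap.toMatrixAlgEquiv b).toMulEquiv.toMonoidHom.comp ρ).toHomUnits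
  have hf : Function.Injective f := fun x y e =>
    hρ ((LinearMap.toMatrixAlgEquiv b).injective (congrArg Units.val e))
  have h1 := h.trans (card_dvd_of_injective f hf)
  rw [Matrix.card_GL_field, ZMod.card, Fin.prod_univ_eq_prod_range fun i => 2 ^ D - 2 ^ i,
    Finset.prod_congr rfl (g := fun i => 2 ^ i * (2 ^ (D - 1 - i + 1) - 1)) fun i hi => by
      rw [Nat.mul_sub_one, ← pow_add]
      congr 2
      have := Finset.mem_range.1 hi
      omega, Finset.prod_mul_distrib, Finset.prod_range_reflect fun i => 2 ^ (i + 1) - 1,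
    Finset.prod_pow_eq_pow_sum] at h1
  exact (Nat.Coprime.pow_right _ (Nat.coprime_two_right.2 hn)).dvd_of_dvd_mul_left h1

theorem prime_dvd [Module.Finite (ZMod 2) V] (hρ : Function.Injective ρ) {r : ℕ}
    (hr : r.Prime) (hn : Odd r) (h : r ∣ Nat.card G) :
    ∃ i, 0 < i ∧ i ≤ finrank (ZMod 2) V ∧ r ∣ 2 ^ i - 1 := by
  obtain ⟨i, hi, h1⟩ := (Prime.dvd_finsetProd_iff hr.prime _).1 (card_dvd_prod hρ hn h)
  exact ⟨i + 1, i.succ_pos, Finset.mem_range.1 hi, h1⟩

theorem sub_one_pow (a : Module.End (ZMod 2) V) (j : ℕ) : (a - 1) ^ 2 ^ j = a ^ 2 ^ j - 1 := by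
  induction j with
  | zero => simp
  | succ j ih =>
    rw [pow_succ, pow_mul, pow_mul, ih, pow_two, pow_two]
    have h := add_self (a ^ 2 ^ j - 1)
    rw [mul_sub, sub_mul, mul_one, one_mul, sub_sub, sub_right_inj, ← sub_eq_zero, ← h]
    abel

theorem two_pow_lt [Module.Finite (ZMod 2) V] (hρ : Function.Injective ρ) {x : G} {j : ℕ}
    (hx : orderOf x = 2 ^ (j + 1)) : 2 ^ j < finrank (ZMod 2) V := by
  by_contra h
  have h1 : (ρ x - 1) ^ 2 ^ (j + 1) = 0 := by
    rw [sub_one_pow, ← map_pow, ← hx, pow_orderOf_eq_one, map_one, sub_self]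
  have h2 := Module.End.ker_pow_le_ker_pow_finrank (ρ x - 1) (2 ^ (j + 1))
  rw [h1, LinearMap.ker_zero, top_le_iff, LinearMap.ker_eq_top] at h2
  have h3 := pow_eq_zero_of_le (not_lt.1 h) h2
  rw [sub_one_pow, ← map_pow, sub_eq_zero, ← map_one ρ] at h3
  exact pow_ne_one_of_lt_orderOf (by positivity)
    (hx ▸ Nat.pow_lt_pow_right one_lt_two j.lt_succ_self) (hρ h3)

end CfsgLib.SEM
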