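import Cfsg.Agent.Lib.SEB.MLin
import Cfsg.Agent.Lib.SEB.Main
import Cfsg.Agent.Lib.PGroupRankOne
import Cfsg.Agent.Lib.TwoGroupMaxClass

/-! Faithful modules in characteristic two: groups of `2`-rank one. -/

set_option autoImplicit false

namespace CfsgLib.SEM

open Subgroup Module MulAction Cfsg CfsgLib.Cop CfsgLib.H1 CfsgLib.SE
open scoped commutatorElement

theorem arith {q m k : ℕ} (hq : q.Prime) (hm : 0 < m) (hk : 0 < k) (hk5 : k ≤ 5)
    (h1 : q ^ (m + 1) ∣ ∏ i ∈ Finset.range (2 * k - 1), (2 ^ (i + 1) - 1))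
    (h2 : 2 ^ k ∣ q ^ m - 1) : False := by
  have h3 : q ^ (m + 1) ∣ 3 ^ 5 * 5 ^ 2 * 7 ^ 3 * 17 * 31 * 73 * 127 :=
    (h1.trans (Finset.prod_dvd_prod_of_subset _ _ _ (Finset.range_subset_range.2
      (by omega : 2 * k - 1 ≤ 9)))).trans (by decide +kernel)
  have h4 := (dvd_pow_self q m.succ_ne_zero).trans h3
  simp only [hq.dvd_mul] at h4
  have h5 : q = 3 ∨ q = 5 ∨ q = 7 ∨ q = 17 ∨ q = 31 ∨ q = 73 ∨ q = 127 := by
    rcases h4 with (((((h | h) | h) | h) | h) | h) | h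
    · simp [(Nat.prime_dvd_prime_iff_eq hq (by norm_num)).1 (hq.dvd_of_dvd_pow h)]
    · simp [(Nat.prime_dvd_prime_iff_eq hq (by norm_num)).1 (hq.dvd_of_dvd_pow h)]
    · simp [(Nat.prime_dvd_prime_iff_eq hq (by norm_num)).1 (hq.dvd_of_dvd_pow h)]
    all_goals simp [(Nat.prime_dvd_prime_iff_eq hq (by norm_num)).1 h]
  have h6 : m ≤ 4 := by
    by_contra h
    have h7 := (pow_dvd_pow q (by omega : 6 ≤ m + 1)).trans h3
    rcases h5 with rfl | rfl | rfl | rfl | rfl | rfl | rfl <;> norm_num at h7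
  clear h3 h4 hq
  rcases h5 with rfl | rfl | rfl | rfl | rfl | rfl | rfl <;> interval_cases m <;>
    interval_cases k <;> revert h1 h2 <;> decide +kernel

variable {G : Type*} [Group G] [Finite G] {V : Type*} [AddCommGroup V] [Module (ZMod 2) V]
  [Module.Finite (ZMod 2) V] {ρ : Representation (ZMod 2) G V}

theorem big_bound (hρ : Function.Injective ρ) {S : Subgroup G} {k : ℕ} (hS : Nat.card S = 2 ^ k)
    (hk : 6 ≤ k) (hu : ∀ a ∈ S, ∀ b ∈ S, IsInv a → IsInv b → a = b) :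
    2 * k ≤ finrank (ZMod 2) V := by
  have key : ∀ (x : S) (j : ℕ), orderOf x = 2 ^ (j + 1) → k ≤ j + 2 →
      2 * k ≤ finrank (ZMod 2) V := fun x j hx hj => by
    have h1 := two_pow_lt hρ (x := x) (j := j) (by rw [← hx, Subgroup.orderOf_coe])
    obtain ⟨i, rfl⟩ : ∃ i, j = i + 4 := ⟨j - 4, by omega⟩
    have h2 : i < 2 ^ i := Nat.lt_two_pow_self
    rw [pow_add] at h1
    omega
  have hi : ∀ a : S, orderOf a = 2 → IsInv (a : G) := fun a ha =>
    ⟨by rw [← pow_two, ← coe_pow, ← ha, pow_orderOf_eq_one, coe_one], fun e => by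
      rw [show a = 1 from Subtype.ext e, orderOf_one] at ha
      exact absurd ha (by norm_num)⟩
  rcases PGrp.isCyclic_or_quaternion_of_unique_involution (IsPGroup.of_card hS)
    (fun a b ha hb => Subtype.ext (hu a a.2 b b.2 (hi a ha) (hi b hb))) with h | ⟨j, hj, ⟨e⟩⟩
  · obtain ⟨x, hx⟩ := IsCyclic.exists_ofOrder_eq_natCard (α := S)
    exact key x (k - 1) (by rw [hx, hS]; congr 1; omega) (by omega)
  · obtain ⟨x, y, h1, -, -, -, h2⟩ := PGrp.exists_gens_of_mulEquiv_quaternionGroup e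
    rw [hS, show 4 * 2 ^ j = 2 ^ (j + 2) by ring] at h2
    exact key x j (by rw [h1]; ring) (Nat.pow_right_injective le_rfl h2).le

theorem pgroup_bound (hρ : Function.Injective ρ) {S P : Subgroup G} {k q : ℕ} [hq : Fact q.Prime]
    (hq2 : q ≠ 2) (hS : Nat.card S = 2 ^ k) (hP : IsPGroup q P)
    (hSP : S ≤ normalizer (P : Set G)) {z : G} (hz : IsInv z) (hzS : z ∈ S)
    (hc : ∀ a ∈ S, a * z = z * a) (hu : ∀ a ∈ S, IsInv a → a = z) (hn : ¬ P ≤ centralizer {z}) :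
    2 * k ≤ finrank (ZMod 2) V := by
  have hu' : ∀ a ∈ S, a ≠ 1 → ∃ j : ℕ, a ^ j = z := fun a ha ha1 => by
    obtain ⟨i, -, hi⟩ := (Nat.dvd_prime_pow Nat.prime_two).1 (hS ▸ S.orderOf_dvd_natCard ha)
    obtain ⟨j, h1, h2⟩ := Suz.exists_invol_pow (g := a) (hi ▸ Nat.even_pow.2 ⟨even_two, by
      rintro rfl
      exact ha1 (orderOf_eq_one_iff.1 hi)⟩)
    exact ⟨j, hu _ (pow_mem ha j) ⟨h2, h1⟩⟩
  set R := closure {x | x ∈ P ∧ z * x * z = x⁻¹} with hR
  have hRP : R ≤ P := (closure_le _).2 fun x hx => hx.1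
  have hR1 : R ≠ ⊥ := fun e => by
    obtain ⟨y, hy, h1, h2⟩ := exists_inverted hz (hSP hzS) hn
    exact h1 (mem_bot.1 (e ▸ subset_closure ⟨hy, by rwa [hz.inv_eq] at h2⟩))
  have hSR : S ≤ normalizer (R : Set G) := fun a ha => mem_normalizer_fintype fun x hx => by
    refine (closure_le (R.comap (MulAut.conj a).toMonoidHom)).2 (fun y hy => subset_closure
      ⟨(mem_normalizer_iff.1 (hSP ha) y).1 hy.1, ?_⟩) hx
    change z * (a * y * a⁻¹) * z = (a * y * a⁻¹)⁻¹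
    rw [conj_inv, ← hy.2]
    simp only [← mul_assoc]
    rw [← hc a ha, mul_assoc _ a⁻¹, hc _ (inv_mem ha), ← mul_assoc]
  have hRq : IsPGroup q R := hP.to_le hRP
  have hodd := odd_card_of_isPGroup hq2 hRq
  have hlt : ⁅R, R⁆ < R := FT.commutator_lt_of_isPGroup hRq le_rfl le_normalizer hR1
  have hN : ∀ a ∈ normalizer (R : Set G), ∀ x ∈ ⁅R, R⁆, a * x * a⁻¹ ∈ ⁅R, R⁆ := fun a ha x hx =>
    (mem_normalizer_iff.1 (le_normalizer_commutator le_rfl le_rfl ha) x).1 hx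
  have hinv : ∀ x ∈ R, z * x * z * x ∈ ⁅R, R⁆ := fun x hx => by
    induction hx using closure_induction with
    | mem x hx => rw [hx.2, inv_mul_cancel]; exact one_mem _
    | one => rw [mul_one, mul_one, hz.1]; exact one_mem _
    | mul x y hx hy h1 h2 =>
      have h3 : ∀ x ∈ R, z * x * z ∈ R := fun x hx => by
        have := (mem_normalizer_iff.1 (hSR hzS) x).1 hx
        rwa [hz.inv_eq] at this
      have h4 : z * (x * y) * z = z * x * z * (z * y * z) := by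
        simp only [mul_assoc, hz.mul_mul]
      have h5 := mul_mem (mul_mem (hN _ (le_normalizer (h3 x hx)) _
        (commutator_mem_commutator (h3 y hy) hx)) h1) h2
      rw [h4]
      generalize z * x * z = X at *
      generalize z * y * z = Y at *
      rwa [show X * ⁅Y, x⁆ * X⁻¹ * (X * x) * (Y * y) = X * Y * (x * y) by
        rw [commutatorElement_def]; group] at h5
    | inv x hx h1 =>
      have := hN x (le_normalizer hx) _ (inv_mem h1)
      rw [show x * (z * x * z * x)⁻¹ * x⁻¹ = z⁻¹ * x⁻¹ * z⁻¹ * x⁻¹ by group, hz.inv_eq] at this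
      exact this
  by_cases hab : ⁅R, R⁆ = ⊥
  · exact abelian_bound hρ hS hSR hodd hR1 hz.1 hzS hc hu' fun x hx =>
      eq_inv_of_mul_eq_one_left (mem_bot.1 (hab ▸ hinv x hx))
  by_cases hk : 6 ≤ k
  · exact big_bound hρ hS hk fun a ha b hb h1 h2 => (hu a ha h1).trans (hu b hb h2).symm
  by_contra hD
  obtain ⟨a, ha⟩ := IsPGroup.iff_card.1 (hRq.to_le hlt.le)
  obtain ⟨b, hb⟩ := IsPGroup.iff_card.1 hRq
  have h1 : a < b := (Nat.pow_lt_pow_iff_right hq.out.one_lt).1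
    (ha ▸ hb ▸ card_lt_card_of_lt hlt)
  have h2 : a ≠ 0 := by
    rintro rfl
    exact hab (card_eq_one.1 ha)
  obtain ⟨m, rfl⟩ : ∃ m, b = a + m := ⟨b - a, by omega⟩
  have h3 := card_dvd_of_act (fun g x : G => g * x * g⁻¹) (by simp) (by simp [mul_assoc]) S
    ((R : Set G) \ (⁅R, R⁆ : Subgroup G)) (fun g hg x hx =>
      ⟨(mem_normalizer_iff.1 (hSR hg) x).1 hx.1, fun h => hx.2 (by
        simpa [mul_assoc] using hN g⁻¹ (inv_mem (hSR hg)) _ h)⟩) fun g hg x hx e => by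
    by_contra hg1
    obtain ⟨j, rfl⟩ := hu' g hg hg1
    have h4 : Commute g x := mul_inv_eq_iff_eq_mul.1 e
    have h5 := hinv x hx.1
    rw [(h4.pow_left j).eq, mul_assoc x, hz.1, mul_one, ← pow_two] at h5
    obtain ⟨i, hi⟩ := odd_orderOf_of_mem hodd hx.1
    have h6 := pow_mem h5 (i + 1)
    rw [← pow_mul, show 2 * (i + 1) = 2 * i + 1 + 1 by ring, ← hi, pow_succ, pow_orderOf_eq_one,
      one_mul] at h6
    exact hx.2 h6
  rw [hS, Set.ncard_sdiff hlt.le, ← Nat.card_coe_set_eq, ← Nat.card_coe_set_eq,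
    SetLike.coe_sort_coe, SetLike.coe_sort_coe, ha, hb, pow_add, ← Nat.mul_sub_one] at h3
  have hqo := hq.out.odd_of_ne_two hq2
  refine arith hq.out (by omega : 0 < m) (by omega) (by omega) ((card_dvd_prod hρ hqo.pow
    ((pow_dvd_pow q (by omega)).trans (hb ▸ card_subgroup_dvd_card R))).trans
      (Finset.prod_dvd_prod_of_subset _ _ _ (Finset.range_subset_range.2 (by omega))))
    ((Nat.Coprime.pow_left _ (Nat.coprime_two_left.2 hqo.pow)).dvd_of_dvd_mul_left h3)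

theorem rank_one_bound (hρ : Function.Injective ρ) {H : Subgroup G} (hH : IsStronglyEmbedded H)
    (hr : ¬ Rk2 (⊤ : Subgroup G)) {S : Subgroup G} {k : ℕ} (hS : Nat.card S = 2 ^ k) :
    2 * k ≤ finrank (ZMod 2) V := by
  by_cases hS1 : S = ⊥
  · rw [hS1, card_bot] at hS
    rw [(Nat.pow_eq_one.1 hS.symm).resolve_left (by norm_num)]
    exact Nat.zero_le _
  have hp : IsPGroup 2 S := IsPGroup.of_card hS
  obtain ⟨z, ⟨hzS, hzc⟩, hz⟩ := exists_inv_center hp hS1
  have hO : (piCoreOf {2}ᶜ (⊤ : Subgroup G)).Normal :=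
    normalizer_eq_top_iff.1 (top_le_iff.1 (le_normalizer_piCoreOf ⊤))
  have hodd := odd_piCoreOf (⊤ : Subgroup G)
  by_contra hD
  have h1 : piCoreOf {2}ᶜ (⊤ : Subgroup G) ≤ centralizer {z} := by
    refine le_of_forall_invariant_sylowOf_le (A := S) (by simp [normalizer_eq_top])
      (hS ▸ Nat.Coprime.pow_left _ (Nat.coprime_two_left.2 hodd))
      (Or.inl (by have := hp.isNilpotent; infer_instance)) fun q _ P h1 h2 h3 => ?_
    by_contra h4
    refine hD (pgroup_bound hρ ?_ hS (sylow_iff.1 h2).isPGroup h3 hz hzS (fun a ha => hzc a ha)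
      (fun a ha h5 => by_contra fun h6 => hr ⟨a, trivial, z, trivial, h5, hz, h6, hzc a ha⟩) h4)
    rintro rfl
    exact (Nat.not_even_iff_odd.2 hodd) (even_iff_two_dvd.2 h1)
  have S' := sea_of_isStronglyEmbedded hH
  obtain ⟨α, hα⟩ := S'.fix z hz
  obtain ⟨β, hβ⟩ := S'.exists_ne α
  obtain ⟨g, rfl⟩ := S'.trans α β
  refine hβ (S'.fix_of_comm hz hα ?_)
  have h2 := zstar_of_not_rk2 hr hz trivial (g := g) trivial
  have h3 := mem_centralizer_singleton_iff.1 (h1 h2)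
  have h4 := Invol.eq_one_of_odd (odd_orderOf_of_mem hodd h2) (by
    have h5 := (hz.conj g).1
    generalize g * z * g⁻¹ = w at *
    rw [hz.inv_eq] at h3 ⊢
    rw [mul_assoc, ← h3, mul_assoc w z, hz.1, mul_one, h5])
  exact mul_inv_eq_iff_eq_mul.1 (mul_inv_eq_one.1 h4)

end CfsgLib.SEM
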