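import Cfsg.Agent.Lib.SEB.MRk1
import Cfsg.Agent.Lib.Suz.Main
import Cfsg.Agent.Lib.BSW.Friend
import Cfsg.Agent.Lib.SL2Card

/-! Faithful modules in characteristic two: groups with a strongly embedded subgroup. -/

set_option autoImplicit false

namespace CfsgLib.SEM

open Subgroup Module MulAction Cfsg CfsgLib.Cop CfsgLib.H1 CfsgLib.SE CfsgLib.Suz
open scoped MatrixGroups

universe u

theorem odd_of_dvd {r n : ℕ} (hn : n ≠ 0) (h : r ∣ 2 ^ n - 1) : Odd r :=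
  (Nat.Even.sub_odd Nat.one_le_two_pow (Nat.even_pow.2 ⟨even_two, hn⟩) odd_one).of_dvd_nat h

theorem exists_inverted_prime {G : Type*} [Group G] [Finite G] {H Q : Subgroup G} {t : G}
    (R : RO H Q t) (h2 : Rank2 Q) {n : ℕ} (hn : Nat.card (Q0g Q) = 2 ^ n) :
    ∃ r : ℕ, r.Prime ∧ Odd r ∧ (∀ m, r ∣ 2 ^ (2 * m) - 1 → n ∣ m) ∧
      ∃ y u : G, orderOf y = r ∧ u * u = 1 ∧ u * y * u = y⁻¹ := by
  obtain ⟨n', hn2, h⟩ := R.exists_card_Q0 h2
  obtain rfl : n' = n := Nat.pow_right_injective le_rfl (h.symm.trans hn)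
  have hK := R.card_Kg h2
  rcases Nat.even_or_odd n' with hev | hodd
  swap
  · obtain ⟨r, hr, h1, h3⟩ := exists_primitive_prime_two (N := n') hn2 (by
      rintro rfl
      exact absurd hodd (by decide))
    have := Fact.mk hr
    obtain ⟨y, hy⟩ := exists_prime_orderOf_dvd_card' (G := Kg H t) r (by
      rwa [← h, ← hK] at h1)
    exact ⟨r, hr, odd_of_dvd (by omega) h1, fun m hm =>
      (Nat.coprime_two_right.2 hodd).dvd_of_dvd_mul_left (h3 _ hm), y, t,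
      by rw [Subgroup.orderOf_coe, hy], R.tt, ((R.mem_Kg h2).1 y.2).2⟩
  obtain ⟨s, s', hs⟩ := R.exists_dist
  obtain rfl : s' = s := by
    obtain ⟨hp, h1 | ⟨hna, hc, hr⟩ | h1⟩ := R.suzuki h2 hs
    · exact R.r_eq_s hs (h1 _ hs.r_mem)
    · obtain ⟨L, htL, hQL, hDL, -, Z⟩ := R.exists_ZT h2 (Q' := Q) le_rfl
        (fun d hd x hx => R.norm d (Dg_le hd.1) x hx) (R.typeA_K h2 hp hna hc hs hr) R.even
      rcases Z.toRO.ZT_theorem Z.inv Z.ne with ⟨_, -, h3, -⟩ | ⟨-, -, -, -, _, _, _, m, -, -, h3, -⟩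
      · exact absurd (hr ▸ congrArg Subtype.val
          (h3 ⟨s', inf_eq_left.1 hQL hs.r_mem⟩ hs.r_mem)) hs.s_ne
      · rw [Dg_subgroupOf, card_subgroupOf_eq, hDL, hK, h] at h3
        obtain rfl : n' = 2 * m + 1 := Nat.pow_right_injective le_rfl h3
        exact absurd hev (by simp)
    · exact h1.2.2.1
  obtain ⟨L, htL, hQL, -, -, Z⟩ := R.exists_ZT h2 (Q' := Q0g Q) Q0g_le
    (fun d hd x hx => R.Q0_norm h2 (Dg_le hd.1) hx) (R.Q0_closed h2 hs)
    (h ▸ Nat.even_pow.2 ⟨even_two, by omega⟩)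
  obtain ⟨n, -, h1, -, ⟨e⟩, -⟩ := Z.sl2 fun x hx =>
    Subtype.ext ((R.mem_Q0 h2).1 (hQL ▸ mem_inf.2 ⟨hx, x.2⟩)).2
  rw [card_subgroupOf_eq, hQL, h] at h1
  obtain rfl : n' = n := Nat.pow_right_injective le_rfl h1
  obtain ⟨r, hr, h3, h4⟩ := exists_primitive_prime_two (N := 2 * n') (by omega) (by
    intro e
    obtain rfl : n' = 3 := by omega
    exact absurd hev (by decide))
  have := Fact.mk hr
  obtain ⟨y, hy⟩ := exists_prime_orderOf_dvd_card' (G := SL(2, GaloisField 2 n')) r (by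
    rw [SL2C.card_SL2, GaloisField.card 2 n' (by omega), ← pow_mul, mul_comm n']
    exact h3.mul_left _)
  obtain ⟨u, hu, huy⟩ := BSW.SL2_exists_inverting y
  rw [pow_two] at hu
  rw [inv_eq_of_mul_self hu] at huy
  refine ⟨r, hr, odd_of_dvd (by omega) h3, fun m hm => Nat.dvd_of_mul_dvd_mul_left two_pos
    (h4 _ hm), e.symm y, e.symm u, by rw [Subgroup.orderOf_coe, MulEquiv.orderOf_eq, hy], ?_, ?_⟩
  · rw [← coe_mul, ← map_mul, hu, map_one, coe_one]
  · rw [← coe_mul, ← coe_mul, ← map_mul, ← map_mul, huy, map_inv, coe_inv]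

theorem exists_quot {G : Type u} [Group G] [Finite G] {H : Subgroup G}
    (hH : IsStronglyEmbedded H) (hr : Rk2 (⊤ : Subgroup G)) :
    ∃ (G' : Type u) (_ : Group G') (_ : Finite G') (f : G →* G') (H' Q : Subgroup G') (t : G'),
      Function.Surjective f ∧ Odd (Nat.card f.ker) ∧ RO H' Q t ∧ Rank2 Q := by
  have S := sea_of_isStronglyEmbedded hH
  obtain ⟨a, ha⟩ := S.even
  obtain ⟨α, hα⟩ := S.fix a ha
  have hM : ¬ (⊤ : Subgroup G) ≤ stabilizer G α := fun h => by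
    obtain ⟨β, hβ⟩ := S.exists_ne α
    obtain ⟨g, rfl⟩ := S.trans α β
    exact hβ (h (mem_top g))
  have R := red_orbit (⊤ : Subgroup G) α
  have := R.finite
  obtain ⟨δ, -⟩ := R.base
  obtain ⟨Q, t, h1, h2⟩ := SEB.exists_RO _ _ (R.sea S hM ha trivial hα) (R.rk2 S hM hr) R.faith δ
  refine ⟨_, _, this, (toPermHom _ (orbit (⊤ : Subgroup G) α)).rangeRestrict.comp
    (topEquiv (G := G)).symm.toMonoidHom, _, Q, t,
    R.surj.comp (topEquiv (G := G)).symm.surjective, odd_of_forall fun u hu hi => ?_, h1, h2⟩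
  exact (R.isInv_map S hM (u := ⟨u, trivial⟩) hi).2 hu

section
variable {G G' : Type*} [Group G] [Finite G] [Group G'] [Finite G'] {f : G →* G'}
  {H Q : Subgroup G'} {t : G'} {V : Type*} [AddCommGroup V] [Module (ZMod 2) V]
  [Module.Finite (ZMod 2) V] {ρ : Representation (ZMod 2) G V}

theorem isInv_map (ho : Odd (Nat.card f.ker)) {u : G} (hu : IsInv u) : IsInv (f u) :=
  ⟨by rw [← map_mul, hu.1, map_one], fun e => hu.not_odd (MonoidHom.mem_ker.2 e) ho⟩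

theorem le_range (hρ : Function.Injective ρ) (hf : Function.Surjective f)
    (ho : Odd (Nat.card f.ker)) (R : RO H Q t) (h2 : Rank2 Q) {n : ℕ}
    (hn : Nat.card (Q0g Q) = 2 ^ n) {u : G} (hu : IsInv u) :
    n ≤ finrank (ZMod 2) (LinearMap.range (ρ u - 1)) := by
  obtain ⟨r, hr, h1, h3, y, v, hy, hv, hvy⟩ := exists_inverted_prime R h2 hn
  have hy2 : y * y ≠ 1 := fun e => by
    have := Invol.eq_one_of_odd (hy ▸ h1) e
    exact hr.ne_one (by rw [← hy, this, orderOf_one])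
  have hv1 : v ≠ 1 := fun e => hy2 (by
    rw [e, one_mul, mul_one] at hvy
    nth_rewrite 1 [hvy]
    exact inv_mul_cancel y)
  have hfu := isInv_map ho hu
  obtain ⟨a, ha⟩ := R.invol_conj_t hv1 hv
  obtain ⟨b, hb⟩ := R.invol_conj_t hfu.2 hfu.1
  have h4 : f u = (b⁻¹ * a) * v * (b⁻¹ * a)⁻¹ := by rw [ha, hb]; group
  generalize b⁻¹ * a = c at h4
  have h5 : IsInv (c * (v * y) * c⁻¹) := IsInv.conj ⟨by
    rw [← mul_assoc, hvy, inv_mul_cancel], fun e => hy2 (by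
      rw [eq_inv_of_mul_eq_one_right e, ← mul_inv_rev, hv, inv_one])⟩ c
  obtain ⟨w, hw⟩ := hf (c * (v * y) * c⁻¹)
  obtain ⟨w', hw', h6⟩ := lift_inv ho (x := w) (hw ▸ h5)
  have h7 : r ∣ orderOf (u * w') := by
    have h8 := orderOf_map_dvd f (u * w')
    rwa [map_mul, h6, hw, h4, conj_mul, ← mul_assoc v, hv, one_mul, show c * y * c⁻¹ =
      MulAut.conj c y from rfl, MulEquiv.orderOf_eq, hy] at h8
  obtain ⟨m, hm, h8, h9⟩ := dihedral hρ hr h1 (orderOf_pow_orderOf_div (orderOf_pos _).ne' h7) hu.1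
    (conj_pow_of_inv hu.1 (by rw [mul_inv_rev, hu.inv_eq, hw'.inv_eq, hu.mul_mul]) _)
  exact (Nat.le_of_dvd hm (h3 m h8)).trans h9

theorem card_le_Q0 (ho : Odd (Nat.card f.ker)) (R : RO H Q t) {A : Subgroup G}
    (hA : ∀ a ∈ A, a * a = 1) : Nat.card A ≤ Nat.card (Q0g Q) := by
  by_cases h : A = ⊥
  · rw [h, card_bot]
    exact Nat.card_pos
  obtain ⟨⟨a, ha⟩, ha1⟩ := ne_bot_iff_exists_ne_one.1 h
  have hfa := isInv_map ho (u := a) ⟨hA a ha, fun e => ha1 (Subtype.ext e)⟩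
  obtain ⟨s, r, hs⟩ := R.exists_dist
  obtain ⟨g, hg⟩ := R.invol_conj_s hs hfa.2 hfa.1
  have h1 : ∀ b ∈ A, g * f b * g⁻¹ ∈ Q0g Q := fun b hb => by
    have h2 : g * f b * g⁻¹ * (g * f b * g⁻¹) = 1 := by
      rw [conj_mul, ← map_mul, hA b hb, map_one, mul_one, mul_inv_cancel]
    refine mem_Q0g_of (R.mem_Q_of_invol (R.mem_H_of_comm hs.s_mem hs.s_ne ?_) h2) h2
    have h3 : a * b = b * a := by
      rw [← inv_eq_of_mul_self (hA _ (mul_mem ha hb)), mul_inv_rev, inv_eq_of_mul_self (hA a ha),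
        inv_eq_of_mul_self (hA b hb)]
    rw [show s = g * f a * g⁻¹ by rw [hg]; group, conj_mul, conj_mul, ← map_mul, ← map_mul, h3]
  refine Nat.card_le_card_of_injective (fun b => ⟨_, h1 b b.2⟩) fun b c e => ?_
  have h2 : f (b * (c : G)⁻¹) = 1 := by
    rw [map_mul, map_inv, mul_inv_eq_one]
    simpa using e
  by_contra h3
  exact (isInv_map ho ⟨hA _ (mul_mem b.2 (inv_mem c.2)), fun h4 =>
    h3 (Subtype.ext (mul_inv_eq_one.1 h4))⟩).2 h2

theorem rank_two_bound (hρ : Function.Injective ρ) (hf : Function.Surjective f)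
    (ho : Odd (Nat.card f.ker)) (R : RO H Q t) (h2 : Rank2 Q) {k : ℕ} (hk : 2 ^ k ∣ Nat.card G) :
    2 * k ≤ finrank (ZMod 2) V := by
  obtain ⟨j, hj⟩ := IsPGroup.iff_card.1 (R.isPGroup_two h2)
  obtain ⟨n, hn2, hn⟩ := R.exists_card_Q0 h2
  have hG : Nat.card G = Nat.card f.ker * Nat.card G' := by
    rw [← f.ker.card_mul_index, index_ker, MonoidHom.range_eq_top.2 hf, card_top]
  have h1 : k ≤ j := by
    rw [hG, ← Q.index_mul_card, ← mul_assoc, hj] at hk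
    exact (Nat.pow_dvd_pow_iff_le_right one_lt_two).1 ((Nat.Coprime.pow_left _
      (Nat.coprime_two_left.2 (ho.mul R.odd_index_Q))).dvd_of_dvd_mul_left hk)
  refine (Nat.mul_le_mul_left 2 h1).trans ?_
  have h3 : n ≤ j := (Nat.pow_le_pow_iff_right one_lt_two).1 (hn ▸ hj ▸ card_le_of_le Q0g_le)
  by_cases h4 : j = 3
  · obtain ⟨x, hx⟩ := hf t
    obtain ⟨u, hu, -⟩ := lift_inv ho (x := x) (hx ▸ ⟨R.tt, R.t_ne⟩)
    refine (Nat.mul_le_mul_left 2 (le_trans ?_ (le_range hρ hf ho R h2 hn hu))).trans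
      (two_mul_le ρ hu.1)
    obtain ⟨s, r, hs⟩ := R.exists_dist
    obtain ⟨-, h5 | ⟨-, h5, -⟩ | ⟨-, h5, -⟩⟩ := R.suzuki h2 hs
    · exact (Nat.pow_le_pow_iff_right one_lt_two).1
        (hn ▸ hj ▸ card_le_of_le fun x hx => mem_Q0g_of hx (h5 x hx))
    all_goals
      rw [hj, hn, ← pow_mul] at h5
      have := Nat.pow_right_injective le_rfl h5
      omega
  obtain ⟨r, hr, h5, h6⟩ := exists_primitive_prime_two (N := 2 * j) (by omega) (by omega)
  have h7 : r ∣ 2 ^ j + 1 := by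
    rw [mul_comm, pow_mul, ← one_pow 2, Nat.sq_sub_sq, hr.dvd_mul] at h5
    refine h5.resolve_right fun h => ?_
    have := Nat.le_of_dvd (by omega) (h6 _ h)
    omega
  obtain ⟨i, h8, h9, h10⟩ := prime_dvd hρ hr (odd_of_dvd (by omega) h5) (by
    rw [hG, R.card_G, hj]
    exact (h7.mul_left _).mul_left _)
  exact (Nat.le_of_dvd h8 (h6 i h10)).trans h9

end

/-- faithful modules over the field with two elements of a group with a strongly embedded
subgroup -/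
theorem main {G : Type u} [Group G] [Finite G] {H : Subgroup G} (hH : IsStronglyEmbedded H)
    {S : Subgroup G} (hS : IsPGroup 2 S) {V : Type*} [AddCommGroup V] [Module (ZMod 2) V]
    [Module.Finite (ZMod 2) V] {ρ : Representation (ZMod 2) G V} (hρ : Function.Injective ρ) :
    (∀ k : ℕ, Nat.card S = 2 ^ k → 2 * k ≤ finrank (ZMod 2) V) ∧
      ∀ (A : Subgroup G) (n : ℕ), (∀ z ∈ A, z * z = 1) → Nat.card A = 2 ^ n → ∀ s ∈ S, s ≠ 1 →
        n ≤ finrank (ZMod 2) (LinearMap.range (ρ s - 1)) := by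
  by_cases hr : Rk2 (⊤ : Subgroup G)
  · obtain ⟨G', _, _, f, H', Q, t, hf, ho, R, h2⟩ := exists_quot hH hr
    refine ⟨fun k hk => rank_two_bound hρ hf ho R h2 (hk ▸ card_subgroup_dvd_card S),
      fun A n hA hn s hs hs1 => ?_⟩
    obtain ⟨m, -, hm⟩ := R.exists_card_Q0 h2
    have h1 : n ≤ m := (Nat.pow_le_pow_iff_right one_lt_two).1 (hn ▸ hm ▸ card_le_Q0 ho R hA)
    obtain ⟨i, hi⟩ := IsPGroup.iff_orderOf.1 hS ⟨s, hs⟩
    rw [← Subgroup.orderOf_coe] at hi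
    obtain ⟨j, h3, h4⟩ := exists_invol_pow (g := s) (hi ▸ Nat.even_pow.2 ⟨even_two, by
      rintro rfl
      exact hs1 (orderOf_eq_one_iff.1 hi)⟩)
    exact h1.trans ((le_range hρ hf ho R h2 hm ⟨h4, h3⟩).trans
      (Submodule.finrank_mono (range_pow_le ρ s j)))
  refine ⟨fun k hk => rank_one_bound hρ hH hr hk, fun A n hA hn s _ hs1 => ?_⟩
  have h1 : n ≤ 1 := by
    by_contra h
    have h2 : 2 < Nat.card A := hn ▸ Nat.pow_lt_pow_right one_lt_two (not_le.1 h)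
    obtain ⟨⟨a, ha⟩, ha1⟩ := ne_bot_iff_exists_ne_one.1 ((one_lt_card_iff_ne_bot A).1 (by omega))
    have hai : IsInv a := ⟨hA a ha, fun e => ha1 (Subtype.ext e)⟩
    obtain ⟨b, hb, hb1⟩ := SetLike.not_le_iff_exists.1 (fun h3 : A ≤ zpowers a => by
      have := hai.card_zpowers ▸ card_le_of_le h3
      omega)
    refine hr ⟨a, trivial, b, trivial, hai, ⟨hA b hb, fun e => hb1 (e ▸ one_mem _)⟩,
      fun e => hb1 (e ▸ mem_zpowers a), ?_⟩
    rw [← inv_eq_of_mul_self (hA _ (mul_mem ha hb)), mul_inv_rev, inv_eq_of_mul_self (hA a ha),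
      inv_eq_of_mul_self (hA b hb)]
  refine h1.trans (Nat.pos_of_ne_zero fun h => ?_)
  obtain ⟨v, hv⟩ := exists_ne hρ hs1
  exact hv ((Submodule.eq_bot_iff _).1 (Submodule.finrank_eq_zero.1 h) _ ⟨v, rfl⟩)

end CfsgLib.SEM
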